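import Mathlib
import Cfsg.Agent.Jordan.PrimeCycle

/-!
Highly transitive groups with an element of small support.
-/

namespace CfsgLib.Jordan

open MulAction Equiv Equiv.Perm Finset

variable {α : Type*} [Fintype α] [DecidableEq α]

theorem exists_map_le {G : Subgroup (Perm α)} {k : ℕ} (hk : k ≤ Fintype.card α)
    (hG : IsMultiplyPretransitive G α k) (Γ : Finset α) (hΓ : Γ.card ≤ k) (e : Perm α) :
    ∃ h ∈ G, ∀ x ∈ Γ, h x = e x :=
  exists_map_of_isMultiplyPretransitive Γ
    (haveI := hG; isMultiplyPretransitive_of_le (n := k) hΓ (by rw [Nat.card_eq_fintype_card]; exact hk)) e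

theorem exists_few_exits (g : Perm α) {S : Finset α} (hgS : ∀ x ∈ S, g x ∈ S) :
    ∀ t ≤ S.card, ∃ T ⊆ S, T.card = t ∧ {x ∈ T | g x ∉ T}.card ≤ 1 := by
  intro t
  induction t with
  | zero => exact fun _ => ⟨∅, empty_subset _, rfl, by simp⟩
  | succ t ih =>
    intro ht
    obtain ⟨T, hTS, hT, hE⟩ := ih (by omega)
    by_cases hex : ∃ x ∈ T, g x ∉ T
    · obtain ⟨x, hx, hgx⟩ := hex
      refine ⟨insert (g x) T, insert_subset (hgS x (hTS hx)) hTS,
        by rw [card_insert_of_notMem hgx, hT], ?_⟩
      refine (card_le_card (t := {g x}) ?_).trans (card_singleton _).le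
      intro z hz
      rw [mem_filter, Finset.mem_insert] at hz
      rw [Finset.mem_singleton]
      rcases hz.1 with rfl | hzT
      · rfl
      · exfalso
        have hgz : g z ∉ T := fun h => hz.2 (Finset.mem_insert_of_mem h)
        have : z = x := card_le_one.mp hE z (mem_filter.mpr ⟨hzT, hgz⟩) x (mem_filter.mpr ⟨hx, hgx⟩)
        exact hz.2 (this ▸ Finset.mem_insert_self _ _)
    · push Not at hex
      obtain ⟨y, hy, hyT⟩ := exists_mem_notMem_of_card_lt_card (hT ▸ ht : T.card < S.card)
      refine ⟨insert y T, insert_subset hy hTS, by rw [card_insert_of_notMem hyT, hT], ?_⟩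
      refine (card_le_card (t := {y}) ?_).trans (card_singleton _).le
      intro z hz
      rw [mem_filter, Finset.mem_insert] at hz
      rw [Finset.mem_singleton]
      rcases hz.1 with rfl | hzT
      · rfl
      · exact absurd (Finset.mem_insert_of_mem (hex z hzT)) hz.2

theorem support_comm_le (g h : Perm α) (Γ A : Finset α) (hΓ : ∀ x ∈ Γ, h x ∈ g.support)
    (hAS : A ⊆ g.support) (hA : ∀ x ∈ A, h x = x ∧ h (g x) = g x) :
    (g⁻¹ * (h * g * h⁻¹)).support.card + A.card ≤ g.support.card + (g.support \ Γ).card := by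
  have hsub : (g⁻¹ * (h * g * h⁻¹)).support ⊆
      (g.support ∪ (g.support \ Γ).image h) \ A := by
    intro x hx
    rw [mem_support] at hx
    rw [Finset.mem_sdiff, Finset.mem_union]
    refine ⟨?_, fun hxA => hx ?_⟩
    · by_contra hcon
      push Not at hcon
      obtain ⟨h1, h2⟩ := hcon
      apply hx
      have h3 : h⁻¹ x ∉ g.support := by
        intro h3
        by_cases hg : h⁻¹ x ∈ Γ
        · exact h1 (by simpa using hΓ _ hg)
        · exact h2 (Finset.mem_image.mpr ⟨h⁻¹ x, Finset.mem_sdiff.mpr ⟨h3, hg⟩, by simp⟩)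
      rw [notMem_support] at h1 h3
      rw [Perm.mul_apply, Perm.mul_apply, Perm.mul_apply, h3, ← Perm.mul_apply h h⁻¹, mul_inv_cancel, Perm.one_apply, Perm.inv_eq_iff_eq, h1]
    · obtain ⟨e1, e2⟩ := hA x hxA
      have : h⁻¹ x = x := Perm.inv_eq_iff_eq.mpr e1.symm
      simp [Perm.mul_apply, this, e2]
  have h1 := card_le_card hsub
  rw [card_sdiff_of_subset (hAS.trans subset_union_left)] at h1
  have h2 := card_union_le g.support ((g.support \ Γ).image h)
  have h3 := card_image_le (s := g.support \ Γ) (f := h)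
  have h4 : A.card ≤ (g.support ∪ (g.support \ Γ).image h).card :=
    card_le_card (hAS.trans subset_union_left)
  omega

theorem exists_smaller_support {G : Subgroup (Perm α)} {k : ℕ} (hk : k + 1 < Fintype.card α)
    (hG : IsMultiplyPretransitive G α k) {g : Perm α} (hg : g ∈ G)
    (hm : g.support.card < 2 * k - 2) (h4 : 4 ≤ g.support.card) :
    ∃ d ∈ G, d ≠ 1 ∧ d.support.card < g.support.card := by
  have hk' : k ≤ Fintype.card α := by omega
  have hD : ∀ h ∈ G, g⁻¹ * (h * g * h⁻¹) ∈ G :=
    fun h hh => G.mul_mem (G.inv_mem hg) (G.mul_mem (G.mul_mem hh hg) (G.inv_mem hh))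
  have hne : ∀ (h : Perm α) (x : α), h (g (h⁻¹ x)) ≠ g x → g⁻¹ * (h * g * h⁻¹) ≠ 1 := by
    intro h x hx heq
    apply hx
    have := congrArg (fun p : Perm α => g (p x)) heq
    simpa [Perm.mul_apply] using this
  by_cases hn : g.support = univ
  · have hall : ∀ x, g x ≠ x := fun x => mem_support.mp (hn ▸ mem_univ x)
    have hcard : g.support.card = Fintype.card α := by rw [hn]; rfl
    obtain ⟨a⟩ : Nonempty α := Fintype.card_pos_iff.mp (by omega)
    obtain ⟨d, -, hd⟩ := exists_mem_notMem_of_card_lt_card (t := univ)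
      (s := ({a, g a, g⁻¹ a} : Finset α))
      ((Finset.card_le_three).trans_lt (by rw [card_univ]; omega))
    obtain ⟨e', -, he'⟩ := exists_mem_notMem_of_card_lt_card (t := univ)
      (s := ({a, g a, d, g d} : Finset α))
      ((Finset.card_le_four).trans_lt (by rw [card_univ]; omega))
    simp only [Finset.mem_insert, Finset.mem_singleton, not_or] at hd he'
    have hgd1 : g d ≠ a := fun h => hd.2.2 (by rw [← h]; simp)
    have hgd2 : g d ≠ g a := fun h => hd.1 (g.injective h)
    obtain ⟨h, hh, hhe⟩ := exists_map_le hk' hG ({a, g a, d, g d} : Finset α)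
      (Finset.card_le_four.trans (by omega)) (swap (g d) e')
    have ha : h a = a := by
      rw [hhe a (by simp), swap_apply_of_ne_of_ne hgd1.symm (Ne.symm he'.1)]
    have hb : h (g a) = g a := by
      rw [hhe (g a) (by simp), swap_apply_of_ne_of_ne hgd2.symm (Ne.symm he'.2.1)]
    have hd' : h d = d := by
      rw [hhe d (by simp), swap_apply_of_ne_of_ne (hall d).symm (Ne.symm he'.2.2.1)]
    have hgd : h (g d) = e' := by rw [hhe (g d) (by simp), swap_apply_left]
    refine ⟨_, hD h hh, hne h d ?_, ?_⟩
    · rw [Perm.inv_eq_iff_eq.mpr hd'.symm, hgd]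
      exact he'.2.2.2
    · rw [hcard, ← card_univ]
      refine card_lt_card ((Finset.ssubset_iff_of_subset (subset_univ _)).mpr ⟨a, mem_univ a, ?_⟩)
      rw [notMem_support]
      simp [Perm.mul_apply, Perm.inv_eq_iff_eq.mpr ha.symm, hb]
  · set t := min (k - 1) (g.support.card - 1) with ht
    obtain ⟨T, hTS, hT, hE⟩ := exists_few_exits g
      (S := g.support) (fun x hx => Perm.apply_mem_support.mpr hx) t (by omega)
    obtain ⟨o, -, ho⟩ := Finset.exists_of_ssubset
      ((Finset.ssubset_univ_iff (s := g.support)).mpr hn)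
    set A := {x ∈ T | g x ∈ T} with hA
    have hAE : A.card + {x ∈ T | g x ∉ T}.card = T.card :=
      card_filter_add_card_filter_not _
    have hAS : A ⊆ g.support := (filter_subset _ _).trans hTS
    have hTdiff : (g.support \ T).card + T.card = g.support.card :=
      card_sdiff_add_card_eq_card hTS
    by_cases hcase : ∃ x ∈ T, g x ∉ T ∧ t + 2 ≤ g.support.card
    · obtain ⟨x, hx, hgx, ht2⟩ := hcase
      have hgxS : g x ∈ g.support := Perm.apply_mem_support.mpr (hTS hx)
      have hbT : insert (g x) T ⊆ g.support := insert_subset hgxS hTS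
      have hbc : (insert (g x) T).card = t + 1 := by rw [card_insert_of_notMem hgx, hT]
      obtain ⟨b', hb', hb'T⟩ :=
        exists_mem_notMem_of_card_lt_card (by omega : (insert (g x) T).card < g.support.card)
      rw [Finset.mem_insert, not_or] at hb'T
      obtain ⟨h, hh, hhe⟩ := exists_map_le hk' hG (insert (g x) T) (by omega) (swap (g x) b')
      have hfix : ∀ z ∈ T, h z = z := fun z hz => by
        rw [hhe z (Finset.mem_insert_of_mem hz),
          swap_apply_of_ne_of_ne (fun e => hgx (by rwa [e] at hz)) (fun e => hb'T.2 (by rwa [e] at hz))]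
      have hb : h (g x) = b' := by rw [hhe (g x) (Finset.mem_insert_self _ _), swap_apply_left]
      refine ⟨_, hD h hh, hne h x ?_, ?_⟩
      · rw [Perm.inv_eq_iff_eq.mpr (hfix x hx).symm, hb]
        exact hb'T.1
      · have := support_comm_le g h (insert (g x) T) A (fun z hz => by
            rcases Finset.mem_insert.mp hz with rfl | hz
            · rw [hb]; exact hb'
            · rw [hfix z hz]; exact hTS hz) hAS
          (fun z hz => ⟨hfix z (mem_filter.mp hz).1, hfix _ (mem_filter.mp hz).2⟩)
        have hd := card_sdiff_add_card_eq_card hbT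
        omega
    · obtain ⟨b, hb, hbT⟩ := exists_mem_notMem_of_card_lt_card (by omega : T.card < g.support.card)
      obtain ⟨h, hh, hhe⟩ := exists_map_le hk' hG (insert b T)
        ((card_insert_le _ _).trans (by omega)) (swap b o)
      have hfix : ∀ z ∈ T, h z = z := fun z hz => by
        rw [hhe z (Finset.mem_insert_of_mem hz),
          swap_apply_of_ne_of_ne (fun e => hbT (by rwa [e] at hz)) (fun e => ho (by rw [← e]; exact hTS hz))]
      have hbo : h b = o := by rw [hhe b (Finset.mem_insert_self _ _), swap_apply_left]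
      refine ⟨_, hD h hh, hne h o ?_, ?_⟩
      · rw [Perm.inv_eq_iff_eq.mpr hbo.symm, notMem_support.mp ho]
        intro hgb
        exact mem_support.mp hb (h.injective (hgb.trans hbo.symm))
      · have := support_comm_le g h T A (fun z hz => by rw [hfix z hz]; exact hTS hz) hAS
          (fun z hz => ⟨hfix z (mem_filter.mp hz).1, hfix _ (mem_filter.mp hz).2⟩)
        by_cases hex : ∃ x ∈ T, g x ∉ T
        · obtain ⟨x, hx, hgx⟩ := hex
          have : ¬ t + 2 ≤ g.support.card := fun h => hcase ⟨x, hx, hgx, h⟩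
          omega
        · push Not at hex
          have hA' : {x ∈ T | g x ∉ T}.card = 0 := by
            rw [card_eq_zero, filter_eq_empty_iff]
            exact fun x hx h => h (hex x hx)
          omega

theorem small_support {G : Subgroup (Perm α)} {k : ℕ} (hk : 3 ≤ k) (hkn : k ≤ Fintype.card α)
    (hG : IsMultiplyPretransitive G α k) {g : Perm α} (hg : g ∈ G) (hg1 : g ≠ 1)
    (hm : g.support.card < 2 * k - 2) :
    (∃ h : Perm α, h ∈ G ∧ h ≠ 1 ∧ h.support.card ≤ 3) ∧ alternatingGroup α ≤ G := by
  by_cases hbig : Fintype.card α ≤ k + 1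
  · have htop : G = ⊤ := eq_top_of_isMultiplyPretransitive
      (haveI := hG; isMultiplyPretransitive_of_le (n := k)
        (by rw [Nat.card_eq_fintype_card]; omega) (by rw [Nat.card_eq_fintype_card]; exact hkn))
    obtain ⟨a, b, hab⟩ := (Fintype.one_lt_card_iff (α := α)).mp (by omega)
    refine ⟨⟨swap a b, htop ▸ Subgroup.mem_top _, fun h => hab ?_, ?_⟩, htop ▸ le_top⟩
    · exact swap_eq_one_iff.mp h
    · rw [card_support_swap hab]; omega
  · have key : ∀ m, ∀ g ∈ G, g ≠ 1 → g.support.card = m → m < 2 * k - 2 →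
        ∃ h ∈ G, h ≠ 1 ∧ h.support.card ≤ 3 := by
      intro m
      induction m using Nat.strong_induction_on with
      | _ m ih =>
        intro g hg hg1 hgm hm
        by_cases h3 : m ≤ 3
        · exact ⟨g, hg, hg1, hgm ▸ h3⟩
        · obtain ⟨d, hd, hd1, hdlt⟩ :=
            exists_smaller_support (by omega) hG hg (hgm ▸ hm) (by omega)
          exact ih _ (hgm ▸ hdlt) d hd hd1 rfl (by omega)
    obtain ⟨h, hh, hh1, hh3⟩ := key _ g hg hg1 rfl hm
    refine ⟨⟨h, hh, hh1, hh3⟩, ?_⟩
    have hprim : IsPreprimitive G α := isPreprimitive_of_is_two_pretransitive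
      (haveI := hG; isMultiplyPretransitive_of_le (n := k) (by omega)
        (by rw [Nat.card_eq_fintype_card]; exact hkn))
    rcases (show h.support.card = 2 ∨ h.support.card = 3 by
      have := two_le_card_support_of_ne_one hh1; omega) with h2 | h2
    · exact (subgroup_eq_top_of_isPreprimitive_of_isSwap_mem hprim h
        (card_support_eq_two.mp h2) hh) ▸ le_top
    · exact alternatingGroup_le_of_isPreprimitive_of_isThreeCycle_mem hprim
        (card_support_eq_three_iff.mp h2) hh

end CfsgLib.Jordan
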